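import Cfsg.Agent.Lib.Cores

/-!
# Groups acting on small modules with a normal subgroup of prime order (helper855, S4191)
-/

set_option autoImplicit false
set_option linter.unusedSectionVars false

namespace Cfsg.Agent.H855.RC

open scoped commutatorElement

/-- A nontrivial solvable group has a nontrivial `t`-core. -/
theorem exists_core {G : Type*} [Group G] [Finite G] [Group.IsSolvable G] [Nontrivial G] :
    ∃ t : ℕ, t.Prime ∧ Cfsg.pCore t G ≠ ⊥ := by
  classical
  have h1 : ∃ n, derivedSeries G n = ⊥ := (Group.isSolvable_def G).1 inferInstance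
  have h2 := Nat.find_spec h1
  set n := Nat.find h1 with hn
  have h0 : n ≠ 0 := by
    intro h
    rw [h, derivedSeries_zero] at h2
    exact top_ne_bot h2
  obtain ⟨m, hm⟩ := Nat.exists_eq_succ_of_ne_zero h0
  have h3 : derivedSeries G m ≠ ⊥ := Nat.find_min h1 (by omega)
  have h4 : Group.IsNilpotent (derivedSeries G m) := by
    have h5 : ∀ a b : derivedSeries G m, a * b = b * a := by
      rintro ⟨a, ha⟩ ⟨b, hb⟩
      have h6 : ⁅a, b⁆ ∈ derivedSeries G n := by
        rw [hm, derivedSeries_succ]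
        exact Subgroup.commutator_mem_commutator ha hb
      rw [h2, Subgroup.mem_bot, commutatorElement_eq_one_iff_mul_comm] at h6
      exact Subtype.ext h6
    let _ : CommGroup (derivedSeries G m) := { (inferInstance : Group (derivedSeries G m)) with mul_comm := h5 }
    infer_instance
  have h5 := Lib.Cores.le_iSup_pCore_of_isNilpotent (derivedSeries_normal G m) h4
  by_contra hcon
  push Not at hcon
  apply h3
  rw [eq_bot_iff]
  refine h5.trans (iSup_le fun p => ?_)
  rw [hcon p p.2]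

theorem modEq_cancel {q t a b : ℕ} (hq : q.Prime) (ht : t.Prime) (htq : t ≠ q) (hab : a ≤ b)
    (h : q ^ b ≡ q ^ a [MOD t]) : q ^ (b - a) ≡ 1 [MOD t] := by
  have h1 : q ^ b = q ^ a * q ^ (b - a) := by rw [← pow_add, Nat.add_sub_cancel' hab]
  have h2 : q ^ a * q ^ (b - a) ≡ q ^ a * 1 [MOD t] := by rw [← h1, mul_one]; exact h
  refine Nat.ModEq.cancel_left_of_coprime ?_ h2
  exact Nat.Coprime.pow_right a ((Nat.coprime_primes ht hq).2 htq)

section

variable {K : Type*} [Group K] [Finite K] {G : Subgroup (MulAut K)}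

/-- fixed points -/
def fixT (T : Subgroup G) : Subgroup K where
  carrier := {x | ∀ τ ∈ T, (τ : MulAut K) x = x}
  one_mem' := fun τ _ => map_one _
  mul_mem' := fun {a b} ha hb τ hτ => by rw [map_mul, ha τ hτ, hb τ hτ]
  inv_mem' := fun {a} ha τ hτ => by rw [map_inv, ha τ hτ]

theorem mem_fixT {T : Subgroup G} {x : K} : x ∈ fixT T ↔ ∀ τ ∈ T, (τ : MulAut K) x = x := Iff.rfl

theorem card_mod {T : Subgroup G} {t : ℕ} (ht : t.Prime) (hTc : Nat.card T = t) {Y : Subgroup K}
    (hY : ∀ τ ∈ T, ∀ y ∈ Y, (τ : MulAut K) y ∈ Y) (hle : fixT T ≤ Y) :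
    Nat.card Y ≡ Nat.card (fixT T) [MOD t] := by
  have htf : Fact t.Prime := ⟨ht⟩
  let _ : MulAction T Y :=
    { smul := fun τ y => ⟨((τ : G) : MulAut K) y, hY τ τ.2 y y.2⟩
      one_smul := fun y => rfl
      mul_smul := fun a b y => rfl }
  have h1 : IsPGroup t T := IsPGroup.of_card (n := 1) (by rw [hTc, pow_one])
  have h2 := h1.card_modEq_card_fixedPoints Y
  have h3 : Nat.card (MulAction.fixedPoints T Y) = Nat.card (fixT T) := by
    refine Nat.card_congr
      { toFun := fun y => ⟨(y : Y), fun τ hτ => congrArg Subtype.val (y.2 ⟨τ, hτ⟩)⟩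
        invFun := fun x => ⟨⟨x, hle x.2⟩, fun τ => Subtype.ext (x.2 τ τ.2)⟩
        left_inv := fun y => rfl
        right_inv := fun x => rfl }
  rwa [h3] at h2

/-- **the bound** -/
theorem small_bound {q n t k : ℕ} (hq : q.Prime) (ht : t.Prime) (htq : t ≠ q) (hK : Nat.card K = q ^ n)
    {T : Subgroup G} (hTn : T.Normal) (hTc : Nat.card T = t)
    (hk : ∀ j, 1 ≤ j → j ≤ n → q ^ j ≡ 1 [MOD t] → j = k) :
    Nat.card G ≤ (t - 1) * (q ^ n * (q ^ (n - k)) ^ (q ^ (n - k))) := by
  classical
  have htf : Fact t.Prime := ⟨ht⟩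
  obtain ⟨a, han, ha⟩ := (Nat.dvd_prime_pow hq).1 (hK ▸ Subgroup.card_subgroup_dvd_card (fixT T))
  -- a nontrivial element of `T`
  have hTnt : Nontrivial T := by
    rw [← Finite.one_lt_card_iff_nontrivial, hTc]
    exact ht.one_lt
  obtain ⟨τ, hτ⟩ := exists_ne (1 : T)
  have hx : ∃ x : K, x ∉ fixT T := by
    by_contra hcon
    push Not at hcon
    apply hτ
    refine Subtype.ext (Subtype.ext ?_)
    ext x
    exact hcon x τ τ.2
  obtain ⟨x, hx⟩ := hx
  -- the subgroup generated by the orbit and the fixed points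
  let X : Set K := {y | ∃ σ ∈ T, (σ : MulAut K) x = y} ∪ fixT T
  have hXT : ∀ σ ∈ T, ∀ y ∈ X, (σ : MulAut K) y ∈ X := by
    rintro σ hσ y (⟨ρ, hρ, rfl⟩ | hy)
    · exact Or.inl ⟨σ * ρ, mul_mem hσ hρ, rfl⟩
    · right
      rw [(hy : ∀ τ ∈ T, (τ : MulAut K) y = y) σ hσ]
      exact hy
  have hYT : ∀ σ ∈ T, ∀ y ∈ Subgroup.closure X, (σ : MulAut K) y ∈ Subgroup.closure X := by
    intro σ hσ y hy
    induction hy using Subgroup.closure_induction with
    | mem y hy => exact Subgroup.subset_closure (hXT σ hσ y hy)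
    | one => rw [map_one]; exact one_mem _
    | mul y z _ _ hy hz => rw [map_mul]; exact mul_mem hy hz
    | inv y _ hy => rw [map_inv]; exact inv_mem hy
  have hle : fixT T ≤ Subgroup.closure X := fun y hy => Subgroup.subset_closure (Or.inr hy)
  have hxY : x ∈ Subgroup.closure X := Subgroup.subset_closure (Or.inl ⟨1, one_mem _, rfl⟩)
  obtain ⟨b, hbn, hb⟩ := (Nat.dvd_prime_pow hq).1 (hK ▸ Subgroup.card_subgroup_dvd_card (Subgroup.closure X))
  have hlt : ∀ (Y : Subgroup K) (c : ℕ), fixT T ≤ Y → x ∈ Y → Nat.card Y = q ^ c → a < c := by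
    intro Y c h1 h2 h3
    by_contra hcon
    have h4 : fixT T = Y := Subgroup.eq_of_le_of_card_ge h1 (by
      rw [h3, ha]
      exact Nat.pow_le_pow_right hq.pos (by omega))
    exact hx (h4 ▸ h2)
  have hab : a < b := hlt _ _ hle hxY hb
  have han' : a < n := hlt ⊤ n le_top (Subgroup.mem_top x) (by rw [Subgroup.card_top, hK])
  have h1 := card_mod ht hTc hYT hle
  rw [hb, ha] at h1
  have h2 := card_mod (Y := ⊤) ht hTc (fun _ _ _ _ => Subgroup.mem_top _) le_top
  rw [Subgroup.card_top, hK, ha] at h2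
  have h3 := hk (b - a) (by omega) (by omega) (modEq_cancel hq ht htq hab.le h1)
  have h4 := hk (n - a) (by omega) (by omega) (modEq_cancel hq ht htq han'.le h2)
  have hbn' : b = n := by omega
  have hYtop : Subgroup.closure X = ⊤ := by
    apply Subgroup.eq_top_of_card_eq
    rw [hb, hbn', hK]
  -- `fixT T` is invariant
  have hfix : ∀ g : G, ∀ y ∈ fixT T, (g : MulAut K) y ∈ fixT T := by
    intro g y hy σ hσ
    have h5 : g⁻¹ * σ * g ∈ T := by
      have := hTn.conj_mem σ hσ g⁻¹
      rwa [inv_inv] at this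
    have h6 := hy _ h5
    have h7 : (g : MulAut K) (((g⁻¹ * σ * g : G) : MulAut K) y) = (σ : MulAut K) ((g : MulAut K) y) := by
      have h8 : g * (g⁻¹ * σ * g) = σ * g := by group
      exact congrArg (fun f : G => (f : MulAut K) y) h8
    rw [← h7, h6]
  -- the injection
  let Φ : G → {y : T // y ≠ 1} × K × (fixT T → fixT T) := fun g =>
    (⟨⟨g * τ * g⁻¹, hTn.conj_mem _ τ.2 g⟩, fun h => hτ (by
      have h5 : g * (τ : G) * g⁻¹ = 1 := congrArg Subtype.val h
      have h6 : (τ : G) = 1 := by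
        have h7 : (τ : G) = g⁻¹ * (g * τ * g⁻¹) * g := by group
        rw [h7, h5]
        group
      exact Subtype.ext h6)⟩, (g : MulAut K) x, fun y => ⟨(g : MulAut K) y, hfix g y y.2⟩)
  have hΦ : Function.Injective Φ := by
    intro g g' h
    have e1 : g * (τ : G) * g⁻¹ = g' * (τ : G) * g'⁻¹ := congrArg (fun z => ((z.1.1 : T) : G)) h
    have e2 : (g : MulAut K) x = (g' : MulAut K) x := congrArg (fun z => z.2.1) h
    have e3 : ∀ y ∈ fixT T, (g : MulAut K) y = (g' : MulAut K) y := fun y hy =>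
      congrArg Subtype.val (congrFun (congrArg
        (fun z : {y : T // y ≠ 1} × K × (fixT T → fixT T) => z.2.2) h) ⟨y, hy⟩)
    -- conjugates of powers
    have e4 : ∀ σ ∈ T, g * σ * g⁻¹ = g' * σ * g'⁻¹ := by
      intro σ hσ
      obtain ⟨i, hi⟩ := mem_zpowers_of_prime_card (p := t) (g := τ) (g' := ⟨σ, hσ⟩) hTc hτ
      have hi' : (τ : G) ^ i = σ := congrArg Subtype.val hi
      rw [← hi', ← conj_zpow, ← conj_zpow, e1]
    have e5 : ∀ y ∈ Subgroup.closure X, (g : MulAut K) y = (g' : MulAut K) y := by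
      intro y hy
      induction hy using Subgroup.closure_induction with
      | mem y hy =>
        rcases hy with ⟨σ, hσ, rfl⟩ | hy
        · have e6 : ∀ g : G, (g : MulAut K) ((σ : MulAut K) x) = ((g * σ * g⁻¹ : G) : MulAut K) ((g : MulAut K) x) := by
            intro g
            have e7 : g * σ = g * σ * g⁻¹ * g := by group
            exact congrArg (fun f : G => (f : MulAut K) x) e7
          rw [e6, e6, e4 σ hσ, e2]
        · exact e3 y hy
      | one => rw [map_one, map_one]
      | mul y z _ _ hy hz => rw [map_mul, map_mul, hy, hz]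
      | inv y _ hy => rw [map_inv, map_inv, hy]
    apply Subtype.ext
    ext y
    exact e5 y (by rw [hYtop]; exact Subgroup.mem_top y)
  have h5 := Nat.card_le_card_of_injective Φ hΦ
  refine h5.trans (le_of_eq ?_)
  have h6 : Nat.card {y : T // y ≠ 1} = t - 1 := by
    have h7 : Nat.card {y : T // y ≠ 1} = (Set.univ \ {(1 : T)}).ncard := by
      rw [← Nat.card_coe_set_eq]
      exact Nat.card_congr (Equiv.subtypeEquivRight fun y => by simp)
    rw [h7, Set.ncard_sdiff (Set.subset_univ _), Set.ncard_univ, Set.ncard_singleton, hTc]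
  have h7 : n - k = a := by omega
  rw [Nat.card_prod, Nat.card_prod, h6, hK, Nat.card_fun, ha, h7]

end

end Cfsg.Agent.H855.RC
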